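import Mathlib
import Cfsg.Agent.Base
import Cfsg.Agent.Lib.SylInt.Ess
import Cfsg.Agent.Lib.Functor.SectFus
import Cfsg.Agent.Lib.InvChar.Rigid

/-! # Sylow 2-subgroups with derived subgroup of order 2: the essential subgroups -/

set_option autoImplicit false

namespace H69.SI

open Subgroup Cfsg H69 Gold H59 H45
open scoped commutatorElement

universe u

variable {G : Type u} [Group G]

/-- `S` is a non-abelian group with derived subgroup `⟨z⟩` of order 2. -/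
structure C2 (S : Subgroup G) (z : G) : Prop where
  zc : z ∈ S ⊓ 𝐂(S)
  z1 : z ≠ 1
  z2 : z * z = 1
  cm : ∀ a ∈ S, ∀ b ∈ S, a * b ≠ b * a → a * b * a⁻¹ = z * b
  nc : ¬ S ≤ 𝐂(S)

namespace C2

variable {S : Subgroup G} {z : G} (h : C2 S z)
include h

theorem conj_cases {a b : G} (ha : a ∈ S) (hb : b ∈ S) : a * b * a⁻¹ = b ∨ a * b * a⁻¹ = z * b :=
  or_iff_not_imp_left.2 fun e => h.cm a ha b hb fun e' => e (by rw [e', mul_inv_cancel_right])

theorem comm_mem {a b : G} (ha : a ∈ S) (hb : b ∈ S) : a * b * a⁻¹ * b⁻¹ ∈ zpowers z := by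
  rcases h.conj_cases ha hb with e | e <;> rw [e]
  · simp
  · simp

/-- Two elements not commuting with `u` have a product that commutes with `u`. -/
theorem mul_comm_of {a b u : G} (ha : a ∈ S) (hb : b ∈ S) (hu : u ∈ S) (h1 : a * u ≠ u * a)
    (h2 : b * u ≠ u * b) : a * b * u = u * (a * b) := by
  rw [← mul_inv_eq_iff_eq_mul, show a * b * u * (a * b)⁻¹ = a * (b * u * b⁻¹) * a⁻¹ by group,
    h.cm b hb u hu h2, ← conj_mul, h.cm a ha u hu h1, h.zc.2 a ha, mul_inv_cancel_right, ← mul_assoc,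
    h.z2, one_mul]

theorem norm_cent {P : Subgroup G} (hP : P ≤ S) (hn : ¬ P ≤ 𝐂(P)) {n : G} (hN : n ∈ 𝐍(P)) :
    n * z * n⁻¹ = z := by
  obtain ⟨a, ha, hc⟩ := SetLike.not_le_iff_exists.1 hn
  obtain ⟨b, hb, hab⟩ : ∃ b ∈ P, b * a ≠ a * b := by
    by_contra e
    push Not at e
    exact hc e
  have h1 := h.cm _ (hP (conj_mem_of_mem_normalizer hN hb)) _ (hP (conj_mem_of_mem_normalizer hN ha))
    fun e => hab (by rwa [conj_mul, conj_mul, mul_left_inj, mul_right_inj] at e)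
  rw [show n * b * n⁻¹ * (n * a * n⁻¹) * (n * b * n⁻¹)⁻¹ = n * (b * a * b⁻¹) * n⁻¹ by group,
    h.cm b (hP hb) a (hP ha) hab, ← conj_mul] at h1
  exact mul_right_cancel h1

theorem le_norm {U : Subgroup G} (hz : z ∈ U) (hU : U ≤ S) : S ≤ 𝐍(U) :=
  le_normalizer_of_cj_le fun s hs x hx => by
    obtain ⟨y, hy, rfl⟩ := mem_cj'.1 hx
    rcases h.conj_cases hs (hU hy) with e | e <;> rw [e]
    exacts [hy, mul_mem hz hy]

theorem sq_mul {a b : G} (ha : a ∈ S) (hb : b ∈ S) (a2 : a * a = 1) (b2 : b * b = 1)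
    (hab : a * b ≠ b * a) : a * b * (a * b) = z := by
  have := h.cm a ha b hb hab
  rw [inv_eq_of_mul_eq_one_right a2] at this
  rw [← mul_assoc, this, mul_assoc, b2, mul_one]

end C2

variable [Finite G] {S : Sylow 2 G} {z : G}

omit [Finite G] in
theorem mem_syl_of_el2' (S : Sylow 2 G) {s : G} (hn : s ∈ 𝐍((S : Subgroup G))) (h2 : El2 s) : s ∈ S :=
  (isSylowIn_top S).le_of_le_normalizer' h2.isPGroup le_top (zpowers_le.2 hn) (mem_zpowers s)

theorem C2.burnside (h : C2 (S : Subgroup G) z) {g : G} (hg : g * z * g⁻¹ ∈ 𝐂((S : Subgroup G))) :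
    g * z * g⁻¹ = z := by
  obtain ⟨n, hn, e⟩ := S.conj_eq_normalizer_conj_of_mem_centralizer z g⁻¹ h.zc.2 (by rwa [inv_inv])
  rw [inv_inv] at e
  rw [e]
  simpa using h.norm_cent le_rfl h.nc (inv_mem hn)

/-- The centralizer of `z` in `N(U)`, for `z ∈ U ≤ S`, lies in `S C(U) N(S)`. -/
theorem C2.cent_fac (h : C2 (S : Subgroup G) z) {U : Subgroup G} (hz : z ∈ U) (hU : U ≤ S) {c : G}
    (hc : c ∈ 𝐍(U)) (hcz : c * z * c⁻¹ = z) :
    ∃ s ∈ S, ∃ k ∈ 𝐂(U), ∃ a ∈ 𝐍((S : Subgroup G)), c = s * k * a := by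
  let D : Subgroup G :=
    { carrier := {n | n ∈ 𝐍(U) ∧ n * z * n⁻¹ = z ∧ ∀ u ∈ U, n * u * n⁻¹ = u ∨ n * u * n⁻¹ = z * u}
      one_mem' := ⟨one_mem _, by simp, fun u _ => Or.inl (by simp)⟩
      mul_mem' := fun {a b} ha hb => ⟨mul_mem ha.1 hb.1, by
        rw [show a * b * z * (a * b)⁻¹ = a * (b * z * b⁻¹) * a⁻¹ by group, hb.2.1, ha.2.1], fun u hu => by
        rw [show a * b * u * (a * b)⁻¹ = a * (b * u * b⁻¹) * a⁻¹ by group]
        rcases hb.2.2 u hu with e | e <;> rw [e]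
        · exact ha.2.2 u hu
        · rw [← conj_mul, ha.2.1]
          exact (ha.2.2 u hu).symm.imp (fun e => by rw [e, ← mul_assoc, h.z2, one_mul]) fun e => by rw [e]⟩
      inv_mem' := fun {a} ha => ⟨inv_mem ha.1, by
        conv_lhs => rw [← ha.2.1]
        group, fun u hu => (ha.2.2 u hu).imp (fun e => by
          conv_lhs => rw [← e]
          group) fun e => by
          have e1 : a⁻¹ * (z * u) * a⁻¹⁻¹ = u := by rw [← e]; group
          have e2 : a⁻¹ * z * a⁻¹⁻¹ = z := by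
            conv_lhs => rw [← ha.2.1]
            group
          rw [← conj_mul, e2] at e1
          rw [← mul_right_inj z, e1, ← mul_assoc, h.z2, one_mul]⟩ }
  have hS : IsSylowIn 2 (S : Subgroup G) D := isSylowIn_of_le S fun s hs =>
    ⟨h.le_norm hz hU hs, by rw [h.zc.2 s hs, mul_inv_cancel_right], fun u hu => h.conj_cases hs (hU hu)⟩
  obtain ⟨n, hn, a, ha, rfl⟩ := hS.frattini (g := c) (mem_normalizer_of_cj_le fun x hx => by
    obtain ⟨y, hy, rfl⟩ := mem_cj'.1 hx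
    have e : c⁻¹ * z * c = z := by
      conv_lhs => rw [← hcz]
      group
    refine ⟨mul_mem (mul_mem hc hy.1) (inv_mem hc), by
      rw [show c * y * c⁻¹ * z * (c * y * c⁻¹)⁻¹ = c * (y * (c⁻¹ * z * c) * y⁻¹) * c⁻¹ by group, e,
        hy.2.1, hcz], fun u hu => ?_⟩
    rw [show c * y * c⁻¹ * u * (c * y * c⁻¹)⁻¹ = c * (y * (c⁻¹ * u * c) * y⁻¹) * c⁻¹ by group]
    refine (hy.2.2 _ (conj_mem_of_mem_normalizer' hc hu)).imp (fun e => by rw [e]; group) fun e => ?_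
    rw [e, ← conj_mul, hcz]; group)
  obtain ⟨s, hs, k, hk, rfl⟩ := exists_sylow_mul_centralizer hS (fun x hx => hx.1) (fun x hx ho => by
    obtain ⟨m, hm⟩ := exists_pow_eq_self_of_coprime ho.symm
    rw [← hm]
    refine pow_mem (fun u hu => ?_) m
    rw [eq_comm, ← mul_inv_eq_iff_eq_mul, show x ^ 2 * u * (x ^ 2)⁻¹ = x * (x * u * x⁻¹) * x⁻¹ by
      rw [pow_two]; group]
    rcases hx.2.2 u hu with e | e <;> rw [e]
    · exact e
    · rw [← conj_mul, hx.2.1, e, ← mul_assoc, h.z2, one_mul]) hn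
  exact ⟨s, hs, k, hk, a, ha, rfl⟩

/-- The shape of an essential subgroup. -/
structure EU (S : Subgroup G) (z : G) (U : Subgroup G) (g : G) : Prop where
  c2 : C2 S z
  zU : z ∈ U
  gn : g ∈ 𝐍(U)
  nc : g * z * g⁻¹ ∉ 𝐂(S)
  eq : U = S ⊓ 𝐂[g * z * g⁻¹]
  ab : U ≤ 𝐂(U)

theorem C2.ess (h : C2 (S : Subgroup G) z) {U : Subgroup G} (hU : Ess 2 ⊤ (S : Subgroup G) U) :
    ∃ g, EU (S : Subgroup G) z U g := by
  have hz := ess_center_le hU h.zc
  have hN := h.le_norm hz hU.le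
  obtain ⟨g, hg, hgz⟩ : ∃ g ∈ 𝐍(U), g * z * g⁻¹ ≠ z := by
    by_contra e
    push Not at e
    refine hU.ne (le_antisymm hU.le fun s hs => hU.mem_of_stabilizes (V := zpowers z) (zpowers_le.2 hz)
      (fun n hn => cj_eq_self_iff.1 (by rw [cj_zpowers, e n hn.2])) ⟨hs, hN hs⟩ ?_
      fun u hu => h.comm_mem hs (hU.le hu))
    rw [centralizer_zpowers]
    exact mem_centralizer_singleton_iff.2 (h.zc.2 s hs)
  have hab : U ≤ 𝐂(U) := by_contra fun e => hgz (h.norm_cent hU.le e hg)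
  refine ⟨g, h, hz, hg, fun e => hgz (h.burnside e), le_antisymm (le_inf hU.le fun x hx =>
    mem_centralizer_singleton_iff.2 (hab (conj_mem_of_mem_normalizer hg hz) x hx)) fun s hs => ?_, hab⟩
  by_contra hs'
  have h1 : essGen ⊤ S U ≤ 𝐂[z] := essGen_le_iff.2 ⟨fun c hc =>
    mem_centralizer_singleton_iff.2 (hc.2 z hz).symm, fun P h1 h2 n hn => mem_centralizer_singleton_iff.2
      (mul_inv_eq_iff_eq_mul.1 (h.norm_cent (h2.trans inf_le_left) (fun e => h1.not_ge ((le_inf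
        (h2.trans inf_le_left) (e.trans (centralizer_anti h1.le))).trans hU.centric)) hn.2))⟩
  have h2 : g⁻¹ * s * g ∈ 𝐍(U) := mul_mem (mul_mem (inv_mem hg) (hN hs.1)) hg
  obtain ⟨t, ht, k, hk, a, ha, e⟩ := h.cent_fac hz hU.le h2 (by
    rw [show g⁻¹ * s * g * z * (g⁻¹ * s * g)⁻¹ = g⁻¹ * (s * (g * z * g⁻¹)) * s⁻¹ * g by group,
      mem_centralizer_singleton_iff.1 hs.2]
    group)
  obtain ⟨j, hj⟩ := (El2.of_mem S.isPGroup' hs.1).conj g⁻¹
  rw [inv_inv] at hj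
  refine hgz (mul_inv_eq_iff_eq_mul.2 (mem_centralizer_singleton_iff.1 (h1 (ess_mem hU ⟨mem_top g, hg⟩
    (x := g⁻¹ * s * g) ?_ (fun e => hs' (by simpa [mul_assoc] using conj_mem_of_mem_normalizer hg e)) hj
    (by simpa [mul_assoc] using hU.sylow_le ⟨hs.1, hN hs.1⟩)))))
  rw [e] at h2 ⊢
  exact mul_mem (mul_mem (hU.sylow_le ⟨ht, hN ht⟩) (centralizer_le_essGen ⟨mem_top k, hk⟩))
    (le_essGen_of_lt (lt_of_le_of_ne hU.le hU.ne) (le_inf le_rfl hN) ⟨⟨mem_top a,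
      (mul_mem_cancel_left (mul_mem (hN ht) (cents_norm le_rfl hk))).1 h2⟩, ha⟩)

namespace EU

variable {U : Subgroup G} {g : G} (h : EU (S : Subgroup G) z U g)
include h

section
omit [Finite G]

theorem le : U ≤ S := h.eq ▸ inf_le_left

theorem mem_iff {x : G} : x ∈ U ↔ x ∈ S ∧ x * (g * z * g⁻¹) = g * z * g⁻¹ * x := by
  rw [h.eq, mem_inf, mem_centralizer_singleton_iff]; rfl

theorem conj_mem {n : G} (hn : n ∈ 𝐍(U)) : n * z * n⁻¹ ∈ U := conj_mem_of_mem_normalizer hn h.zU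

theorem conj_sq (n : G) : n * z * n⁻¹ * (n * z * n⁻¹) = 1 := by rw [conj_mul, h.c2.z2]; group

theorem center_le : (S : Subgroup G) ⊓ 𝐂((S : Subgroup G)) ≤ U := fun _ hc =>
  h.mem_iff.2 ⟨hc.1, (hc.2 _ (h.le (h.conj_mem h.gn))).symm⟩

theorem le_norm : (S : Subgroup G) ≤ 𝐍(U) := h.c2.le_norm h.zU h.le

theorem not_comm {x s : G} (hx : x ∈ U) (hx' : x ∉ 𝐂((S : Subgroup G))) (hs : s ∈ S) (hs' : s ∉ U) :
    s * x ≠ x * s := fun e => hx' fun t ht => by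
  by_cases ht' : t ∈ U
  · exact h.ab hx t ht'
  have := h.ab hx _ (h.mem_iff.2 ⟨mul_mem hs ht, h.c2.mul_comm_of hs ht (h.le (h.conj_mem h.gn))
    (fun e => hs' (h.mem_iff.2 ⟨hs, e⟩)) fun e => ht' (h.mem_iff.2 ⟨ht, e⟩)⟩)
  rwa [← mul_assoc, ← e, mul_assoc, mul_assoc, mul_right_inj] at this

theorem mul_cent {x y : G} (hx : x ∈ U) (hy : y ∈ U) (hx' : x ∉ 𝐂((S : Subgroup G)))
    (hy' : y ∉ 𝐂((S : Subgroup G))) : x * y ∈ 𝐂((S : Subgroup G)) := fun s hs => by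
  by_cases hs' : s ∈ U
  · exact h.ab (mul_mem hx hy) s hs'
  rw [← mul_inv_eq_iff_eq_mul, ← conj_mul, h.c2.cm s hs x (h.le hx) (h.not_comm hx hx' hs hs'),
    h.c2.cm s hs y (h.le hy) (h.not_comm hy hy' hs hs'), mul_assoc, ← mul_assoc x,
    h.c2.zc.2 x (h.le hx), mul_assoc, ← mul_assoc, h.c2.z2, one_mul]

theorem exists_conj {x : G} (hx : x ∈ S) (hx' : x ∉ 𝐂((S : Subgroup G))) :
    ∃ s ∈ S, s * x * s⁻¹ = z * x := by
  by_contra e
  push Not at e
  exact hx' fun s hs => by_contra fun e' => e s hs (h.c2.cm s hs x hx e')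

end

theorem conj_cases {n : G} (hn : n ∈ 𝐍(U)) :
    n * z * n⁻¹ = z ∨ n * z * n⁻¹ = g * z * g⁻¹ ∨ n * z * n⁻¹ = z * (g * z * g⁻¹) := by
  by_contra e
  push Not at e
  have key : ∀ m ∈ 𝐍(U), g⁻¹ * (m * z * m⁻¹) * g ∈ 𝐂((S : Subgroup G)) → m * z * m⁻¹ = g * z * g⁻¹ :=
    fun m _ hc => by
      have := h.c2.burnside (g := g⁻¹ * m) (by simpa [mul_assoc] using hc)
      calc m * z * m⁻¹ = g * (g⁻¹ * m * z * (g⁻¹ * m)⁻¹) * g⁻¹ := by group
        _ = _ := by rw [this]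
  obtain ⟨s, hs, e1⟩ := h.exists_conj (h.le (h.conj_mem hn)) fun hc => e.1 (h.c2.burnside hc)
  have h1 := h.mul_cent (conj_mem_of_mem_normalizer' h.gn h.zU)
    (conj_mem_of_mem_normalizer' h.gn (h.conj_mem hn))
    (fun hc => h.nc (by rw [← key 1 (one_mem _) (by simpa using hc)]; simpa using h.c2.zc.2))
    fun hc => e.2.1 (key n hn hc)
  have h2 := key (s * n) (mul_mem (h.le_norm hs) hn) (by
    rwa [show s * n * z * (s * n)⁻¹ = s * (n * z * n⁻¹) * s⁻¹ by group, e1,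
      show g⁻¹ * (z * (n * z * n⁻¹)) * g = g⁻¹ * z * g * (g⁻¹ * (n * z * n⁻¹) * g) by group])
  rw [show s * n * z * (s * n)⁻¹ = s * (n * z * n⁻¹) * s⁻¹ by group, e1] at h2
  exact e.2.2 (by rw [← h2, ← mul_assoc z z, h.c2.z2, one_mul])

end EU

/-- The part of `U` centralized by all conjugates of `S` in `N(U)`. -/
def BU (S U : Subgroup G) : Subgroup G := U ⊓ 𝐂(ncl S 𝐍(U))

namespace EU

variable {U : Subgroup G} {g : G} (h : EU (S : Subgroup G) z U g)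
include h

section
omit [Finite G]

theorem B_le : BU S U ≤ (S : Subgroup G) ⊓ 𝐂((S : Subgroup G)) :=
  inf_le_inf h.le (centralizer_anti (le_ncl _ _))

theorem z_not_mem : z ∉ BU S U := fun e => h.nc fun s hs => by
  have := e.2 _ (cj_le_ncl _ (inv_mem h.gn) (cj_mem g⁻¹ hs))
  calc s * (g * z * g⁻¹) = g * (g⁻¹ * s * g⁻¹⁻¹ * z) * g⁻¹ := by group
    _ = _ := by rw [this]; group

omit h in
theorem norm_B : 𝐍(U) ≤ 𝐍(BU S U) :=
  le_normalizer_inf le_rfl (le_normalizer_centralizer (le_normalizer_ncl _ _))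

end

omit h in
theorem fac {n : G} (hn : n ∈ 𝐍(U)) : ∃ k ∈ 𝐂(BU S U), ∃ a ∈ 𝐍((S : Subgroup G)), n = k * a := by
  obtain ⟨k, hk, a, ha, e⟩ := (isSylowIn_of_le S (le_ncl _ 𝐍(U))).frattini (le_normalizer_ncl _ _ hn)
  exact ⟨k, centsC.1 inf_le_right hk, a, ha, e⟩

theorem center_cases {c : G} (hc : c ∈ (S : Subgroup G) ⊓ 𝐂((S : Subgroup G))) :
    c ∈ BU S U ∨ z * c ∈ BU S U := by
  have dep : ∀ m ∈ 𝐍(U), m * z * m⁻¹ = z → m ∈ 𝐍((S : Subgroup G) ⊓ 𝐂((S : Subgroup G))) := fun m hm e => by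
    obtain ⟨s, hs, k, hk, a, ha, rfl⟩ := h.c2.cent_fac h.zU h.le hm e
    have h1 := le_normalizer_inf le_rfl (normalizer_le_normalizer_centralizer (S : Subgroup G))
    exact mul_mem (mul_mem (h1 (le_normalizer hs)) (cents_norm (centralizer_anti h.center_le) hk)) (h1 ha)
  have key : ∀ c ∈ (S : Subgroup G) ⊓ 𝐂((S : Subgroup G)), g⁻¹ * c * g ∈ 𝐂((S : Subgroup G)) →
      c ∈ BU S U := fun c hc h1 => ⟨h.center_le hc, centsC.1 (ncl_le_iff.2 fun n hn => centsC.1 (zpowers_le.2 ?_))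
        (mem_zpowers c)⟩
  · by_cases h1 : g⁻¹ * c * g ∈ 𝐂((S : Subgroup G))
    · exact Or.inl (key c hc h1)
    refine Or.inr (key _ (mul_mem h.c2.zc hc) ?_)
    rw [show g⁻¹ * (z * c) * g = g⁻¹ * z * g * (g⁻¹ * c * g) by group]
    refine h.mul_cent (conj_mem_of_mem_normalizer' h.gn h.zU)
      (conj_mem_of_mem_normalizer' h.gn (h.center_le hc)) (fun e => h.nc ?_) h1
    have := h.c2.burnside (g := g⁻¹) (by rwa [inv_inv])
    rw [← this, show g * (g⁻¹ * z * g⁻¹⁻¹) * g⁻¹ = z by group]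
    exact h.c2.zc.2
  rw [← cj_centralizer, mem_cj]
  have h2 : g⁻¹ * c * g ∈ (S : Subgroup G) ⊓ 𝐂((S : Subgroup G)) :=
    ⟨h.le (conj_mem_of_mem_normalizer' h.gn (h.center_le hc)), h1⟩
  rcases h.conj_cases hn with e | e | e
  · exact (conj_mem_of_mem_normalizer' (dep n hn e) hc).2
  · have := conj_mem_of_mem_normalizer' (dep (g⁻¹ * n) (mul_mem (inv_mem h.gn) hn) (by
      rw [show g⁻¹ * n * z * (g⁻¹ * n)⁻¹ = g⁻¹ * (n * z * n⁻¹) * g by group, e]; group)) h2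
    simpa [mul_assoc] using this.2
  · obtain ⟨s, hs, e1⟩ := h.exists_conj (h.le (h.conj_mem h.gn)) h.nc
    have := conj_mem_of_mem_normalizer' (dep ((s * g)⁻¹ * n) (mul_mem (inv_mem (mul_mem (h.le_norm hs)
      h.gn)) hn) (by
      rw [show (s * g)⁻¹ * n * z * ((s * g)⁻¹ * n)⁻¹ = (s * g)⁻¹ * (n * z * n⁻¹) * (s * g) by group, e, ← e1]
      group)) h2
    rw [show ((s * g)⁻¹ * n)⁻¹ * (g⁻¹ * c * g) * ((s * g)⁻¹ * n) = n⁻¹ * (s * c * s⁻¹) * n by group,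
      hc.2 s hs, mul_inv_cancel_right] at this
    exact this.2

theorem not_sq {c : G} (hc : c ∈ (S : Subgroup G) ⊓ 𝐂((S : Subgroup G))) : c * c ≠ z := fun e => by
  rcases h.center_cases hc with h1 | h1
  · exact h.z_not_mem (e ▸ mul_mem h1 h1)
  · have := mul_mem h1 h1
    rw [mul_assoc, ← mul_assoc c, h.c2.zc.2 c hc.1, mul_assoc, ← mul_assoc, h.c2.z2, one_mul, e] at this
    exact h.z_not_mem this

/-- Two involutions outside `U` commute. -/
theorem comm_out {a b : G} (ha : a ∈ S) (hb : b ∈ S) (a2 : a * a = 1) (b2 : b * b = 1) (ha' : a ∉ U)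
    (hb' : b ∉ U) : a * b = b * a := by
  by_contra hab
  have hu := h.conj_mem h.gn
  have h1 : a * b ∈ U := h.mem_iff.2 ⟨mul_mem ha hb, h.c2.mul_comm_of ha hb (h.le hu)
    (fun e => ha' (h.mem_iff.2 ⟨ha, e⟩)) fun e => hb' (h.mem_iff.2 ⟨hb, e⟩)⟩
  have h2 := h.mul_cent h1 hu (fun e => hab (by
    have := e b hb
    rwa [mul_assoc, b2, mul_one, ← mul_assoc, ← eq_mul_inv_iff_mul_eq, inv_eq_of_mul_eq_one_right b2,
      eq_comm] at this)) h.nc
  refine h.not_sq ⟨h.le (mul_mem h1 hu), h2⟩ ?_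
  rw [mul_assoc (a * b), ← mul_assoc _ (a * b), ← h.ab hu _ h1, mul_assoc (a * b), h.conj_sq, mul_one,
    h.c2.sq_mul ha hb a2 b2 hab]

omit [Finite G] in
theorem eq_cent {x : G} (hx : x ∈ U) (hx' : x ∉ 𝐂((S : Subgroup G))) : U = (S : Subgroup G) ⊓ 𝐂[x] :=
  le_antisymm (le_inf h.le fun y hy => mem_centralizer_singleton_iff.2 (h.ab hx y hy)) fun _ hs =>
    by_contra fun e => h.not_comm hx hx' hs.1 e (mem_centralizer_singleton_iff.1 hs.2)

theorem norm_le : 𝐍((S : Subgroup G)) ≤ 𝐍(U) := fun n hn => by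
  have hu := h.conj_mem h.gn
  have key : ∀ w ∈ 𝐍((S : Subgroup G)), w * (g * z * g⁻¹) * w⁻¹ ∈ U → w ∈ 𝐍(U) := fun w hw e => by
    rw [← cj_eq_self_iff]
    conv_lhs => rw [h.eq, cj_inf, cj_eq_of_mem_normalizer hw, cj_centralizer_singleton]
    refine (h.eq_cent e fun e' => h.nc ?_).symm
    have := conj_mem_of_mem_normalizer' (normalizer_le_normalizer_centralizer _ hw) e'
    simpa [mul_assoc] using this
  obtain ⟨w, hw, b, hb, h1, h2, rfl⟩ := exists_parts n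
  replace hw := zpowers_le.2 hn hw
  refine mul_mem ?_ (h.le_norm (mem_syl_of_el2' S (zpowers_le.2 hn hb) h2))
  obtain ⟨m, hm⟩ := exists_pow_eq_self_of_coprime (Nat.coprime_two_left.2 h1)
  by_contra e
  have e1 : w * (g * z * g⁻¹) * w⁻¹ ∉ U := fun e' => e (key w hw e')
  have e2 : w * (w * (g * z * g⁻¹) * w⁻¹) * w⁻¹ ∉ U := fun e' => e (hm ▸ pow_mem (key _ (pow_mem hw 2)
    (by simpa [pow_two, mul_assoc] using e')) m)
  have hs := conj_mem_of_mem_normalizer hw (h.le hu)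
  have h3 := h.comm_out (conj_mem_of_mem_normalizer hw hs) hs (by rw [conj_mul, conj_mul, h.conj_sq]; group)
    (by rw [conj_mul, h.conj_sq]; group) e2 e1
  rw [conj_mul, conj_mul, mul_left_inj, mul_right_inj] at h3
  exact e1 (h.mem_iff.2 ⟨hs, h3⟩)

theorem comm_le_B : ⁅(S : Subgroup G) ⊓ 𝐂((S : Subgroup G)), 𝐍((S : Subgroup G))⁆ ≤ BU S U := by
  rw [commutator_comm, commutator_le]
  intro n hn c hc
  have h1 := EU.norm_B (S := S) (h.norm_le hn)
  rcases h.center_cases hc with e | e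
  · exact mul_mem (conj_mem_of_mem_normalizer h1 e) (inv_mem e)
  · have := mul_mem (inv_mem e) (conj_mem_of_mem_normalizer h1 e)
    rwa [← conj_mul, h.c2.norm_cent le_rfl h.c2.nc hn, mul_inv_rev, mul_assoc, inv_mul_cancel_left,
      ← (inv_mem hc : c⁻¹ ∈ _).2 _ (conj_mem_of_mem_normalizer hn hc.1)] at this

end EU

end H69.SI
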