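import Mathlib
import Cfsg.Agent.Base
import Cfsg.Agent.Lib.SylInt.C2
import Cfsg.Agent.Lib.SylInt.Defs
import Cfsg.Agent.Lib.Invol.Dihedral
import Cfsg.Agent.Lib.TwoFusion.Tools

/-! # Simple groups whose Sylow 2-subgroup has derived subgroup of order 2 -/

set_option autoImplicit false

namespace H69.SI

open Subgroup Cfsg H69 Gold H59 H45
open scoped commutatorElement

universe u

variable {G : Type u} [Group G] [Finite G] {S : Sylow 2 G} {z : G}

theorem C2.exists_eu (h : C2 (S : Subgroup G) z) (zs : ZS.{u}) (hO : pPrimeCore 2 G = ⊥)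
    (hz : z ∉ center G) : ∃ U g, EU (S : Subgroup G) z U g := by
  by_contra e
  have hF := fus_of_no_ess (isSylowIn_top S) fun U hU => e ⟨U, h.ess hU⟩
  refine hz (mem_center_iff.2 fun g => ?_)
  have := zs G ⊤ S (isSylowIn_top S) z h.zc.1 (fun g hg hc => by
    obtain ⟨n, hn, e⟩ := hF.conj h.zc.1 hg hc
    rw [← e, h.norm_cent le_rfl h.nc hn.2]) g (mem_top g)
  rw [Od_top, hO, mem_bot, commutatorElement_eq_one_iff_mul_comm] at this
  exact this.symm

namespace EU

variable {U : Subgroup G} {g : G} (h : EU (S : Subgroup G) z U g)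
include h

theorem sc_comm : SC (zo ⁅(S : Subgroup G) ⊓ 𝐂((S : Subgroup G)), 𝐍((S : Subgroup G))⁆) ⊤ := by
  have h1 : 𝐍((S : Subgroup G)) ≤ 𝐍(⁅(S : Subgroup G) ⊓ 𝐂((S : Subgroup G)), 𝐍((S : Subgroup G))⁆) :=
    le_normalizer_commutator (le_normalizer_inf le_rfl (normalizer_le_normalizer_centralizer _))
      le_normalizer
  refine sc_of_fus (isSylowIn_top S) ((zo_le _).trans (h.comm_le_B.trans (h.B_le.trans inf_le_left)))
    (fus_of_norm (isSylowIn_top S) (inf_le_right.trans (h1.trans (norm_zo _))) fun V hV n hn => ?_)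
  obtain ⟨g', h'⟩ := h.c2.ess hV
  obtain ⟨k, hk, a, ha, rfl⟩ := EU.fac (S := S) hn.2
  exact norm_zo _ (mul_mem (cents_norm (centralizer_anti h'.comm_le_B) hk) (h1 ha))

theorem odd_cent {w : G} (hw : w ∈ 𝐍((S : Subgroup G))) (ho : Odd (orderOf w))
    (hc : w ∈ 𝐂((S : Subgroup G) ⊓ 𝐂((S : Subgroup G)))) : w ∈ 𝐂((S : Subgroup G)) := by
  have hU := h.norm_le hw
  have ho' := Nat.coprime_two_right.2 ho
  refine mem_centralizer_of_coprime (S.isPGroup'.to_le h.le) ho' (mem_centralizer_of_coprime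
    (S.isPGroup'.to_le inf_le_left) ho' hc fun x hx => ?_) fun s hs => ?_
  · have h1 := conj_mem_of_mem_normalizer hU hx
    refine ⟨h.le (mul_mem h1 (inv_mem hx)), ?_⟩
    change _ ∈ 𝐂((S : Subgroup G))
    by_cases e : x ∈ 𝐂((S : Subgroup G))
    · exact mul_mem (conj_mem_of_mem_normalizer (normalizer_le_normalizer_centralizer _ hw) e) (inv_mem e)
    refine h.mul_cent h1 (inv_mem hx) (fun e' => e ?_) fun e' => e (inv_mem_iff.1 e')
    have := conj_mem_of_mem_normalizer' (normalizer_le_normalizer_centralizer _ hw) e'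
    simpa [mul_assoc] using this
  · by_cases e : s ∈ U
    · exact mul_mem (conj_mem_of_mem_normalizer hU e) (inv_mem e)
    have h1 := conj_mem_of_mem_normalizer hw hs
    refine h.mem_iff.2 ⟨mul_mem h1 (inv_mem hs), h.c2.mul_comm_of h1 (inv_mem hs) (h.le (h.conj_mem h.gn))
      (fun e' => e ?_) fun e' => e (inv_mem_iff.1 (h.mem_iff.2 ⟨inv_mem hs, e'⟩))⟩
    have := conj_mem_of_mem_normalizer' hU (h.mem_iff.2 ⟨h1, e'⟩)
    simpa [mul_assoc] using this

/-- Every element of `U` is the product of an element of `{1, z, u, z u}` and an element of `B`. -/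
theorem decomp {E : Subgroup G} (hz : z ∈ E) (hu : g * z * g⁻¹ ∈ E) {x : G} (hx : x ∈ U) :
    ∃ v, (∀ n ∈ 𝐍(U), n * v * n⁻¹ ∈ E) ∧ ∃ b ∈ BU S U, x = v * b := by
  have h1 : ∀ n ∈ 𝐍(U), n * z * n⁻¹ ∈ E := fun n hn => by
    rcases h.conj_cases hn with e | e | e <;> rw [e]
    exacts [hz, hu, mul_mem hz hu]
  have h2 : ∀ c ∈ (S : Subgroup G) ⊓ 𝐂((S : Subgroup G)),
      ∃ v, (∀ n ∈ 𝐍(U), n * v * n⁻¹ ∈ E) ∧ ∃ b ∈ BU S U, c = v * b := fun c hc => by
    rcases h.center_cases hc with e | e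
    · exact ⟨1, fun n _ => by simp, c, e, by simp⟩
    · exact ⟨z, h1, _, e, by rw [← mul_assoc, h.c2.z2, one_mul]⟩
  by_cases e : x ∈ 𝐂((S : Subgroup G))
  · exact h2 x ⟨h.le hx, e⟩
  obtain ⟨v, h3, b, hb, e⟩ := h2 _ ⟨h.le (mul_mem (h.conj_mem h.gn) hx),
    h.mul_cent (h.conj_mem h.gn) hx h.nc e⟩
  refine ⟨g * z * g⁻¹ * v, fun n hn => ?_, b, hb, by
    rw [mul_assoc _ v, ← e, ← mul_assoc, h.conj_sq, one_mul]⟩
  rw [← conj_mul]
  refine mul_mem ?_ (h3 n hn)
  have := h1 _ (mul_mem hn h.gn)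
  simpa [mul_assoc] using this

/-- The focal subgroup, if `N(S)` centralizes `Z(S)`. -/
theorem focal (hc : 𝐍((S : Subgroup G)) ≤ 𝐂((S : Subgroup G) ⊓ 𝐂((S : Subgroup G)))) {E : Subgroup G}
    (hz : z ∈ E) (hE : ∀ V k, EU (S : Subgroup G) z V k → k * z * k⁻¹ ∈ E) :
    commutator G ⊓ S ≤ E := by
  have key := alperin_ess' (isSylowIn_top S) (fun P k => ∀ x ∈ P, k * x * k⁻¹ * x⁻¹ ∈ E)
    (fun P P' k h1 h2 x hx => h2 x (h1 hx))
    (fun P k l h1 h2 x hx => by
      have := mul_mem (h2 _ (cj_mem k hx)) (h1 x hx)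
      simpa [mul_assoc] using this)
    (fun P k h1 x hx => by
      obtain ⟨y, hy, rfl⟩ := mem_cj'.1 hx
      have := inv_mem (h1 y hy)
      simpa [mul_assoc] using this)
    (fun V c _ _ h1 x hx => by simp [conj_eq_of_mem_centralizer h1 hx])
    (fun n _ hn x hx => by
      obtain ⟨w, hw, b, hb, h1, h2, rfl⟩ := exists_parts n
      replace hw := zpowers_le.2 hn hw
      replace hb := mem_syl_of_el2' S (zpowers_le.2 hn hb) h2
      rw [show w * b * x * (w * b)⁻¹ = w * (b * x * b⁻¹) * w⁻¹ by group, conj_eq_of_mem_centralizer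
        (h.odd_cent hw h1 (hc hw)) (mul_mem (mul_mem hb hx) (inv_mem hb))]
      exact zpowers_le.2 hz (h.c2.comm_mem hb hx))
    (fun V hV _ _ n _ hn x hx => by
      obtain ⟨k, h'⟩ := h.c2.ess hV
      obtain ⟨v, h1, b, hb, rfl⟩ := h'.decomp hz (hE V k h') hx
      obtain ⟨c, hc', a, ha, e⟩ := EU.fac (S := S) hn
      have h2 : n * b * n⁻¹ = b := by
        rw [e, show c * a * b * (c * a)⁻¹ = c * (a * b * a⁻¹) * c⁻¹ by group,
          conj_eq_of_mem_centralizer (hc ha) (h'.B_le hb), conj_eq_of_mem_centralizer hc' hb]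
      rw [← conj_mul, h2, mul_inv_rev, mul_assoc, mul_inv_cancel_left]
      exact mul_mem (h1 n hn) (inv_mem (by simpa using h1 1 (one_mem _))))
  rw [commutator_inf_eq_focalSubgroup, focalSubgroup_def, closure_le]
  rintro _ ⟨h1, x, hx, k, rfl⟩
  have h2 : k * x * k⁻¹ ∈ (S : Subgroup G) := by
    have := mul_mem (inv_mem h1) hx
    simpa [commutatorElement_def, mul_assoc] using this
  have := inv_mem (key (zpowers x) k (zpowers_le.2 hx) (mem_top k)
    (by rw [cj_zpowers]; exact zpowers_le.2 h2) x (mem_zpowers x))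
  simpa [commutatorElement_def, mul_assoc] using this

theorem dihedral (hc : 𝐍((S : Subgroup G)) ≤ 𝐂((S : Subgroup G) ⊓ 𝐂((S : Subgroup G))))
    (hG : (S : Subgroup G) ≤ commutator G) : Nonempty ((S : Subgroup G) ≃* DihedralGroup 4) := by
  have hu := h.conj_mem h.gn
  obtain ⟨V, k, h', hk⟩ : ∃ V k, EU (S : Subgroup G) z V k ∧ k * z * k⁻¹ ∉ U := by
    by_contra e
    push Not at e
    exact h.nc (centsC.1 ((le_inf hG le_rfl).trans ((h.focal hc h.zU e).trans h.ab)) hu)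
  have hv := h'.conj_mem h'.gn
  have h1 : g * z * g⁻¹ * (k * z * k⁻¹) ≠ k * z * k⁻¹ * (g * z * g⁻¹) := fun e =>
    hk (h.mem_iff.2 ⟨h'.le hv, e.symm⟩)
  have h2 := h.c2.sq_mul (h.le hu) (h'.le hv) (h.conj_sq g) (h.conj_sq k) h1
  have hm1 : g * z * g⁻¹ ∈ closure {g * z * g⁻¹, k * z * k⁻¹} := subset_closure (by simp)
  have hm2 : k * z * k⁻¹ ∈ closure {g * z * g⁻¹, k * z * k⁻¹} := subset_closure (by simp)
  have hz : z ∈ closure {g * z * g⁻¹, k * z * k⁻¹} := by
    have := mul_mem (mul_mem hm1 hm2) (mul_mem hm1 hm2)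
    rwa [h2] at this
  have h3 : (S : Subgroup G) = closure {g * z * g⁻¹, k * z * k⁻¹} := le_antisymm
    ((le_inf hG le_rfl).trans (h.focal hc hz fun W l h'' => by
      by_cases e : l * z * l⁻¹ ∈ U
      · rcases h.conj_cases (n := l) ((h.eq_cent e h''.nc).trans h''.eq.symm ▸ h''.gn) with e | e | e <;>
          rw [e]
        exacts [hz, hm1, mul_mem hz hm1]
      · have hl := h''.le (h''.conj_mem h''.gn)
        rcases h'.conj_cases (n := l) ((h'.eq_cent (h'.mem_iff.2 ⟨hl, h.comm_out hl (h'.le hv)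
          (h.conj_sq l) (h.conj_sq k) e hk⟩) h''.nc).trans h''.eq.symm ▸ h''.gn) with e | e | e <;> rw [e]
        exacts [hz, hm2, mul_mem hz hm2]))
    (by rw [closure_le, Set.insert_subset_iff, Set.singleton_subset_iff]; exact ⟨h.le hu, h'.le hv⟩)
  refine H41.nonempty_mulEquiv_dihedral (by decide) (orderOf_eq_prime_pow (p := 2) (n := 1)
    (by rw [pow_one, pow_two, h2]; exact h.c2.z1) (by rw [pow_succ, pow_mul, pow_one, pow_two, pow_two,
      h2, h.c2.z2])) (h.conj_sq g) (H9.left_inverts (h.conj_sq g) (h.conj_sq k)) ?_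
    fun d => h3 ▸ H9.mem_closure_pair_iff (h.conj_sq g) (h.conj_sq k) d
  rintro ⟨i, hi⟩
  have := (Commute.refl (g * z * g⁻¹ * (k * z * k⁻¹))).zpow_left i
  simp only at hi
  rw [hi, commute_iff_eq, mul_assoc (g * z * g⁻¹), mul_right_inj] at this
  exact h1 this

end EU

theorem KS.c2_simple (ks : KS.{u}) [hs : IsSimpleGroup G] (hn : ¬ IsMulCommutative G)
    (h : C2 (S : Subgroup G) z) : Nonempty ((S : Subgroup G) ≃* DihedralGroup 4) := by
  obtain ⟨U, g, h1⟩ := h.exists_eu ks.k.zs (Od_top.symm.trans (Od_eq_bot ks.k.ft top_simple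
    (top_not_comm hn))) (by rw [center_eq_bot hn, mem_bot]; exact h.z1)
  have h2 := h1.comm_le_B
  refine h1.dihedral (centsC.1 (le_centralizer_of_commutator_eq_bot (by_contra fun e => ?_)))
    (le_top.trans ((hs.eq_bot_or_eq_top_of_normal _ inferInstance).resolve_left fun e =>
      hn ((commutator_eq_bot_iff G).1 e)).ge)
  have h3 := h2.trans (h1.B_le.trans inf_le_left)
  have h4 := zo_ne_bot (S.isPGroup'.to_le h3) e
  refine h1.z_not_mem (h2 (zo_le _ ?_))
  rcases ks.gs G ⊤ top_simple (top_not_comm hn) _ (ea_zo _) h4 h1.sc_comm with ⟨T, h5⟩ | h5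
  · obtain rfl := h5.eq_of_syl (isSylowIn_top S) fun e => h4 (by
      rw [eq_bot_iff, ← e]; exact le_inf h5.le ((zo_le _).trans h3))
    exact h5.inv z h.zc.1 h.z2
  · exact (h5.syl.max S ((zo_le _).trans h3) le_top S.isPGroup').le h.zc.1

end H69.SI
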